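import Cfsg.Agent.H942.L7.Iface
import Cfsg.Agent.S0813
import Cfsg.Agent.S0265
import Cfsg.Agent.S1265
import Cfsg.Agent.ClassicalGeometry.PSL2Basic
import Cfsg.Agent.ClassicalGeometry.PSL2Solvable
import Cfsg.Agent.LieClassical.FieldTransfer
import Cfsg.Agent.SmallSimple.PSLTwoPart

/-!
# S5920, task GRP: finite groups with generalized Fitting subgroup `PSL₂(7)`
-/

set_option autoImplicit false

namespace Cfsg.Agent.H89.L7

open Equiv Cfsg.Agent.H942.L7

universe u

instance fact_seven : Fact (Nat.Prime 7) := ⟨by norm_num⟩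

/-! ### orders -/

section orders

variable {F : Type*} [Field F] [Fintype F]

theorem card_psl (hF : Fintype.card F = 7) :
    Nat.card (Matrix.ProjectiveSpecialLinearGroup (Fin 2) F) = 168 := by
  have h := Cfsg.Agent.SmallSimple.PSLTwoPart.card_psl_two_odd (F := F) (by rw [hF]; decide)
  rw [hF] at h
  omega

theorem card_aut (hF : Fintype.card F = 7) :
    Nat.card (MulAut (Matrix.ProjectiveSpecialLinearGroup (Fin 2) F)) = 336 := by
  rw [Cfsg.Agent.S0813.result 7 1 le_rfl (by rw [hF, pow_one]) 2 le_rfl (fun _ => by norm_num),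
    Cfsg.Agent.S0265.result, Cfsg.Agent.ClassicalGeometry.PSL2Basic.card_SL2, hF]
  norm_num

theorem psl_simple (hF : Fintype.card F = 7) :
    IsSimpleGroup (Matrix.ProjectiveSpecialLinearGroup (Fin 2) F) :=
  Matrix.ProjectiveSpecialLinearGroup.rank_two_simple (by rw [Nat.card_eq_fintype_card]; omega)

theorem psl_center (hF : Fintype.card F = 7) :
    Subgroup.center (Matrix.ProjectiveSpecialLinearGroup (Fin 2) F) = ⊥ := by
  have hPs := psl_simple hF
  have h1 : ¬ ∀ a b : Matrix.ProjectiveSpecialLinearGroup (Fin 2) F, a * b = b * a := fun h =>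
    Cfsg.Agent.ClassicalGeometry.PSL2Solvable.not_isSolvable_psl F (by omega)
      (Group.isSolvable_of_comm h)
  push Not at h1
  obtain ⟨a, b, hab⟩ := h1
  rcases (inferInstance : (Subgroup.center (Matrix.ProjectiveSpecialLinearGroup (Fin 2) F)).Normal).eq_bot_or_eq_top with h | h
  · exact h
  · exact absurd (Subgroup.mem_center_iff.1 (by rw [h]; exact Subgroup.mem_top b) a) hab

end orders

/-- A finite group with a normal subgroup `N ≅ PSL₂(7)` with trivial centralizer. -/
theorem two_cases {F : Type*} [Field F] [Fintype F] (hF : Fintype.card F = 7) {K : Type*} [Group K]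
    [Finite K] (N : Subgroup K) (hN : N.Normal)
    (e : ↥N ≃* Matrix.ProjectiveSpecialLinearGroup (Fin 2) F)
    (hc : Subgroup.centralizer (N : Set K) = ⊥) :
    (N = ⊤ ∧ Nonempty (K ≃* Matrix.ProjectiveSpecialLinearGroup (Fin 2) F)) ∨
      Nonempty (K ≃* MulAut (Matrix.ProjectiveSpecialLinearGroup (Fin 2) F)) := by
  have hinj : Function.Injective (MulAut.conjNormal : K →* MulAut N) := by
    rw [injective_iff_map_eq_one]
    intro g hg
    have h2 : g ∈ Subgroup.centralizer (N : Set K) := by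
      rw [Subgroup.mem_centralizer_iff]
      intro t ht
      have h3 : ((MulAut.conjNormal g (⟨t, ht⟩ : N) : N) : K) = t := by rw [hg]; rfl
      rw [MulAut.conjNormal_apply] at h3
      have h4 : g * t * g⁻¹ = t := h3
      rw [mul_inv_eq_iff_eq_mul] at h4
      exact h4.symm
    rwa [hc, Subgroup.mem_bot] at h2
  have hA : Nat.card (MulAut N) = 336 := by
    rw [Nat.card_congr (MulAut.congr e).toEquiv, card_aut hF]
  have hNc : Nat.card N = 168 := by rw [Nat.card_congr e.toEquiv, card_psl hF]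
  have h1 : Nat.card K ∣ 336 := by
    rw [← hA, ← Nat.card_congr (MonoidHom.ofInjective hinj).symm.toEquiv]
    exact Subgroup.card_subgroup_dvd_card _
  have h2 : 168 ∣ Nat.card K := by
    rw [← hNc]
    exact Subgroup.card_subgroup_dvd_card N
  have hfin : Finite (MulAut N) := inferInstance
  have h3 : Nat.card K = 168 ∨ Nat.card K = 336 := by
    obtain ⟨k, hk⟩ := h2
    rw [hk] at h1 ⊢
    have h4 : k ≤ 2 := by
      have := Nat.le_of_dvd (by norm_num) h1
      omega
    have h5 : k ≠ 0 := by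
      rintro rfl
      simp at h1
    omega
  rcases h3 with h3 | h3
  · have hN1 : N = ⊤ := Subgroup.eq_top_of_card_eq N (by rw [hNc, h3])
    exact Or.inl ⟨hN1, ⟨(Subgroup.topEquiv.symm.trans (MulEquiv.subgroupCongr hN1.symm)).trans e⟩⟩
  · right
    have hbij : Function.Bijective (MulAut.conjNormal : K →* MulAut N) := by
      rw [Nat.bijective_iff_injective_and_card]
      exact ⟨hinj, by rw [h3, hA]⟩
    exact ⟨(MulEquiv.ofBijective _ hbij).trans (MulAut.congr e)⟩

/-! ### `P168` and `P336` -/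

theorem nn_mem : nn ∈ P168 := Subgroup.subset_closure (by simp)
theorem hh_mem : g6 ^ 2 ∈ P168 := Subgroup.subset_closure (by simp)
theorem ww_mem : ww ∈ P168 := Subgroup.subset_closure (by simp)

theorem P168_le : P168 ≤ P336 := by
  unfold P168
  rw [Subgroup.closure_le]
  have h1 : nn ∈ P336 := Subgroup.subset_closure (by simp)
  have h2 : g6 ∈ P336 := Subgroup.subset_closure (by simp)
  have h3 : ww ∈ P336 := Subgroup.subset_closure (by simp)
  rintro x (rfl | rfl | rfl)
  · exact h1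
  · exact pow_mem h2 2
  · exact h3

theorem sign_of_mem {x : Perm (Fin 8)} (hx : x ∈ P168) : Equiv.Perm.sign x = 1 := by
  have h : P168 ≤ (Equiv.Perm.sign : Perm (Fin 8) →* ℤˣ).ker := by
    unfold P168
    rw [Subgroup.closure_le]
    rintro x (rfl | rfl | rfl)
    · show Equiv.Perm.sign nn = 1
      decide
    · show Equiv.Perm.sign (g6 ^ 2) = 1
      rw [map_pow, Int.units_sq]
    · show Equiv.Perm.sign ww = 1
      decide
  exact h hx

theorem g6_not_mem : g6 ∉ P168 := by
  intro h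
  have h1 := sign_of_mem h
  revert h1
  decide

theorem centralizer_triv {σ : Perm (Fin 8)} (h1 : σ * nn = nn * σ) (h2 : σ * ww = ww * σ) : σ = 1 := by
  have e1 : ∀ x, σ (nn x) = nn (σ x) := fun x => by
    have := congrArg (fun τ : Perm (Fin 8) => τ x) h1
    exact this
  have e2 : ∀ x, σ (ww x) = ww (σ x) := fun x => by
    have := congrArg (fun τ : Perm (Fin 8) => τ x) h2
    exact this
  have h7 : σ 7 = 7 := by
    have h3 : nn (σ 7) = σ 7 := by
      rw [← e1]
      rfl
    have h4 : ∀ x : Fin 8, nn x = x → x = 7 := by decide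
    exact h4 _ h3
  have h0 : σ 0 = 0 := by
    have h3 : σ (ww 7) = ww (σ 7) := e2 7
    rw [h7] at h3
    exact h3
  have hs : ∀ x y : Fin 8, nn x = y → σ x = x → σ y = y := by
    rintro x _ rfl hx
    rw [e1, hx]
  have h1' := hs 0 1 rfl h0
  have h2' := hs 1 2 rfl h1'
  have h3' := hs 2 3 rfl h2'
  have h4' := hs 3 4 rfl h3'
  have h5' := hs 4 5 rfl h4'
  have h6' := hs 5 6 rfl h5'
  ext x
  fin_cases x
  · exact congrArg Fin.val h0
  · exact congrArg Fin.val h1'
  · exact congrArg Fin.val h2'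
  · exact congrArg Fin.val h3'
  · exact congrArg Fin.val h4'
  · exact congrArg Fin.val h5'
  · exact congrArg Fin.val h6'
  · exact congrArg Fin.val h7

theorem g6_conj : ∀ x ∈ P168, g6 * x * g6⁻¹ ∈ P168 := by
  have h : P168 ≤ P168.comap (MulAut.conj g6).toMonoidHom := by
    conv_lhs => unfold P168
    rw [Subgroup.closure_le]
    rintro x (rfl | rfl | rfl)
    · show g6 * nn * g6⁻¹ ∈ P168
      have h1 : g6 * nn * g6⁻¹ = nn ^ 3 := by decide
      rw [h1]
      exact pow_mem nn_mem 3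
    · show g6 * g6 ^ 2 * g6⁻¹ ∈ P168
      have h1 : g6 * g6 ^ 2 * g6⁻¹ = g6 ^ 2 := by group
      rw [h1]
      exact hh_mem
    · show g6 * ww * g6⁻¹ ∈ P168
      have h1 : g6 * ww * g6⁻¹ = g6 ^ 2 * ww := by decide
      rw [h1]
      exact mul_mem hh_mem ww_mem
  exact fun x hx => h hx

theorem normal_P168 : (P168.subgroupOf P336).Normal := by
  have hle : P336 ≤ Subgroup.normalizer (P168 : Set (Perm (Fin 8))) := by
    unfold P336
    rw [Subgroup.closure_le]
    rintro x (rfl | rfl | rfl)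
    · exact Subgroup.le_normalizer nn_mem
    · show g6 ∈ Subgroup.normalizer (P168 : Set (Perm (Fin 8)))
      rw [Subgroup.mem_normalizer_iff]
      intro x
      refine ⟨g6_conj x, fun hx => ?_⟩
      have h1 := g6_conj _ (g6_conj _ (g6_conj _ (g6_conj _ (g6_conj _ hx))))
      have h6 : g6 ^ 6 = 1 := by decide
      have h2 : g6 * (g6 * (g6 * (g6 * (g6 * (g6 * x * g6⁻¹) * g6⁻¹) * g6⁻¹) * g6⁻¹) * g6⁻¹) * g6⁻¹ =
          g6 ^ 6 * x * (g6 ^ 6)⁻¹ := by
        simp only [pow_succ, pow_zero, one_mul, mul_inv_rev, mul_assoc]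
      rw [h2, h6, one_mul, inv_one, mul_one] at h1
      exact h1
    · exact Subgroup.le_normalizer ww_mem
  exact Subgroup.normal_subgroupOf_of_le_normalizer hle

/-- `168` divides the order of `P168`. -/
theorem dvd_card : 168 ∣ Nat.card P168 := by
  have h7 : 7 ∣ Nat.card P168 := by
    have h1 : orderOf (⟨nn, nn_mem⟩ : P168) = 7 := by
      rw [← Subgroup.orderOf_coe]
      exact orderOf_eq_prime (by decide) (by decide)
    rw [← h1]
    exact orderOf_dvd_natCard _
  have h3 : 3 ∣ Nat.card P168 := by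
    have h1 : orderOf (⟨g6 ^ 2, hh_mem⟩ : P168) = 3 := by
      rw [← Subgroup.orderOf_coe]
      exact orderOf_eq_prime (by decide) (by decide)
    rw [← h1]
    exact orderOf_dvd_natCard _
  have h8 : 8 ∣ Nat.card P168 := by
    have h1 := Nat.card_congr (MulAction.orbitProdStabilizerEquivGroup P168 (7 : Fin 8))
    have h2 : MulAction.orbit P168 (7 : Fin 8) = Set.univ := by
      rw [Set.eq_univ_iff_forall]
      have h4 : ∀ y : Fin 8, y = 7 ∨ ∃ i : Fin 7, (nn ^ (i : ℕ) * ww) 7 = y := by decide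
      intro y
      rcases h4 y with rfl | ⟨i, hi⟩
      · exact MulAction.mem_orbit_self _
      · exact ⟨⟨nn ^ (i : ℕ) * ww, mul_mem (pow_mem nn_mem _) ww_mem⟩, hi⟩
    rw [Nat.card_prod, h2, Nat.card_congr (Equiv.Set.univ _), Nat.card_eq_fintype_card,
      Fintype.card_fin] at h1
    rw [← h1]
    exact Dvd.intro _ rfl
  have h56 : 7 * 8 ∣ Nat.card P168 := Nat.Coprime.mul_dvd_of_dvd_of_dvd (by norm_num) h7 h8
  exact Nat.Coprime.mul_dvd_of_dvd_of_dvd (by norm_num : Nat.Coprime 3 (7 * 8)) h3 h56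

/-! ### the action of `SL₂(7)` on the projective line -/

/-- The projective line as `Fin 8`. -/
def pt : OnePoint (ZMod 7) ≃ Fin 8 := (finSuccEquivLast (n := 7)).symm

/-- the finite points -/
def pf (k : ZMod 7) : Fin 8 := Fin.castSucc (show Fin 7 from k)

theorem pt_some (k : ZMod 7) : pt (k : OnePoint (ZMod 7)) = pf k := by
  show (finSuccEquivLast (n := 7)).symm (some (show Fin 7 from k)) = _
  rw [finSuccEquivLast_symm_some]
  rfl

theorem pt_infty : pt OnePoint.infty = 7 := by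
  show (finSuccEquivLast (n := 7)).symm none = _
  rw [finSuccEquivLast_symm_none]
  rfl

/-- The action of `GL₂(7)`. -/
noncomputable def act : Matrix.GeneralLinearGroup (Fin 2) (ZMod 7) →* Perm (Fin 8) :=
  (Equiv.permCongrHom pt).toMonoidHom.comp
    (MulAction.toPermHom (Matrix.GeneralLinearGroup (Fin 2) (ZMod 7)) (OnePoint (ZMod 7)))

theorem act_pt (g : Matrix.GeneralLinearGroup (Fin 2) (ZMod 7)) (x : OnePoint (ZMod 7)) :
    act g (pt x) = pt (g • x) := by
  show pt (g • (pt.symm (pt x))) = _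
  rw [Equiv.symm_apply_apply]

/-- The action of `SL₂(7)`. -/
noncomputable def sact : Matrix.SpecialLinearGroup (Fin 2) (ZMod 7) →* Perm (Fin 8) :=
  act.comp Matrix.SpecialLinearGroup.toGL

theorem sact_eq (s : Matrix.SpecialLinearGroup (Fin 2) (ZMod 7)) (σ : Perm (Fin 8))
    (h1 : (s.1 1 0 = 0 → σ 7 = 7) ∧ (s.1 1 0 ≠ 0 → ∀ m : ZMod 7, m * s.1 1 0 = s.1 0 0 → pf m = σ 7))
    (h2 : ∀ k : ZMod 7, (s.1 1 0 * k + s.1 1 1 = 0 → σ (pf k) = 7) ∧
      (s.1 1 0 * k + s.1 1 1 ≠ 0 → ∀ m : ZMod 7, m * (s.1 1 0 * k + s.1 1 1) = s.1 0 0 * k + s.1 0 1 → pf m = σ (pf k))) :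
    sact s = σ := by
  ext y
  obtain ⟨x, rfl⟩ := pt.surjective y
  congr 1
  show act (Matrix.SpecialLinearGroup.toGL s) (pt x) = _
  rw [act_pt]
  cases x with
  | infty =>
    rw [OnePoint.smul_infty_eq_ite, pt_infty]
    show pt (if s.1 1 0 = 0 then OnePoint.infty else ((s.1 0 0 / s.1 1 0 : ZMod 7) : OnePoint (ZMod 7))) = σ 7
    split_ifs with h
    · rw [pt_infty, h1.1 h]
    · rw [pt_some]
      exact h1.2 h _ (div_mul_cancel₀ _ h)
  | coe k =>
    rw [OnePoint.smul_some_eq_ite, pt_some]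
    show pt (if s.1 1 0 * k + s.1 1 1 = 0 then OnePoint.infty else
      (((s.1 0 0 * k + s.1 0 1) / (s.1 1 0 * k + s.1 1 1) : ZMod 7) : OnePoint (ZMod 7))) = σ (pf k)
    split_ifs with h
    · rw [pt_infty, (h2 k).1 h]
    · rw [pt_some]
      exact (h2 k).2 h _ (div_mul_cancel₀ _ h)

/-- the matrix of `nn` -/
def mN : Matrix.SpecialLinearGroup (Fin 2) (ZMod 7) := ⟨!![1, 1; 0, 1], by decide⟩
/-- the matrix of `g6 ^ 2` -/
def mH : Matrix.SpecialLinearGroup (Fin 2) (ZMod 7) := ⟨!![3, 0; 0, 5], by decide⟩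
/-- the matrix of `ww` -/
def mW : Matrix.SpecialLinearGroup (Fin 2) (ZMod 7) := ⟨!![0, -1; 1, 0], by decide⟩

theorem sact_N : sact mN = nn := by
  refine sact_eq _ _ ?_ ?_
  · decide
  · decide

theorem sact_H : sact mH = g6 ^ 2 := by
  refine sact_eq _ _ ?_ ?_
  · decide
  · decide

theorem sact_W : sact mW = ww := by
  refine sact_eq _ _ ?_ ?_
  · decide
  · decide

theorem sact_center {s : Matrix.SpecialLinearGroup (Fin 2) (ZMod 7)}
    (hs : s ∈ Subgroup.center (Matrix.SpecialLinearGroup (Fin 2) (ZMod 7))) : sact s = 1 := by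
  obtain ⟨r, hr, he⟩ := Matrix.SpecialLinearGroup.mem_center_iff.1 hs
  have hr0 : r ≠ 0 := by
    rintro rfl
    simp at hr
  have h00 : s.1 0 0 = r := by rw [← he]; simp
  have h01 : s.1 0 1 = 0 := by rw [← he]; simp
  have h10 : s.1 1 0 = 0 := by rw [← he]; simp
  have h11 : s.1 1 1 = r := by rw [← he]; simp
  refine sact_eq s 1 ⟨fun _ => rfl, fun h => absurd h10 h⟩ fun k => ⟨fun h => ?_, fun _ m hm => ?_⟩
  · rw [h10, h11, zero_mul, zero_add] at h
    exact absurd h hr0
  · rw [h10, h11, h00, h01, zero_mul, zero_add, add_zero, mul_comm] at hm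
    rw [mul_left_cancel₀ hr0 hm]
    rfl

theorem center_of_sact {s : Matrix.SpecialLinearGroup (Fin 2) (ZMod 7)} (hs : sact s = 1) :
    s ∈ Subgroup.center (Matrix.SpecialLinearGroup (Fin 2) (ZMod 7)) := by
  have h : ∀ x : OnePoint (ZMod 7), (Matrix.SpecialLinearGroup.toGL s) • x = x := by
    intro x
    apply pt.injective
    rw [← act_pt]
    have h1 : act (Matrix.SpecialLinearGroup.toGL s) = 1 := hs
    rw [h1]
    rfl
  have h10 : s.1 1 0 = 0 := by
    have h1 := h OnePoint.infty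
    exact OnePoint.smul_infty_eq_self_iff.1 h1
  have hdet : s.1 0 0 * s.1 1 1 = 1 := by
    have h1 := s.2
    rw [Matrix.det_fin_two, h10, mul_zero, sub_zero] at h1
    exact h1
  have h11 : s.1 1 1 ≠ 0 := by
    intro h1
    rw [h1, mul_zero] at hdet
    exact zero_ne_one hdet
  have h01 : s.1 0 1 = 0 := by
    have h1 := h ((0 : ZMod 7) : OnePoint (ZMod 7))
    rw [OnePoint.smul_some_eq_ite] at h1
    have h2 : (if s.1 1 0 * 0 + s.1 1 1 = 0 then OnePoint.infty else
      (((s.1 0 0 * 0 + s.1 0 1) / (s.1 1 0 * 0 + s.1 1 1) : ZMod 7) : OnePoint (ZMod 7))) =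
        ((0 : ZMod 7) : OnePoint (ZMod 7)) := h1
    rw [mul_zero, zero_add, mul_zero, zero_add, if_neg h11, OnePoint.coe_eq_coe, div_eq_zero_iff] at h2
    rcases h2 with h2 | h2
    · exact h2
    · exact absurd h2 h11
  have h00 : s.1 0 0 = s.1 1 1 := by
    have h1 := h ((1 : ZMod 7) : OnePoint (ZMod 7))
    rw [OnePoint.smul_some_eq_ite] at h1
    have h2 : (if s.1 1 0 * 1 + s.1 1 1 = 0 then OnePoint.infty else
      (((s.1 0 0 * 1 + s.1 0 1) / (s.1 1 0 * 1 + s.1 1 1) : ZMod 7) : OnePoint (ZMod 7))) =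
        ((1 : ZMod 7) : OnePoint (ZMod 7)) := h1
    rw [h10, h01, zero_mul, zero_add, mul_one, add_zero, if_neg h11, OnePoint.coe_eq_coe,
      div_eq_one_iff_eq h11] at h2
    exact h2
  rw [Matrix.SpecialLinearGroup.mem_center_iff]
  refine ⟨s.1 1 1, ?_, ?_⟩
  · rw [Fintype.card_fin, pow_two]
    nth_rewrite 1 [← h00]
    exact hdet
  · ext i j
    fin_cases i <;> fin_cases j
    · show (Matrix.scalar (Fin 2) (s.1 1 1)) 0 0 = s.1 0 0
      rw [h00]; simp
    · show (Matrix.scalar (Fin 2) (s.1 1 1)) 0 1 = s.1 0 1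
      rw [h01]; simp
    · show (Matrix.scalar (Fin 2) (s.1 1 1)) 1 0 = s.1 1 0
      rw [h10]; simp
    · show (Matrix.scalar (Fin 2) (s.1 1 1)) 1 1 = s.1 1 1
      simp

/-- The action of `PSL₂(7)`. -/
noncomputable def pact : Matrix.ProjectiveSpecialLinearGroup (Fin 2) (ZMod 7) →* Perm (Fin 8) :=
  QuotientGroup.lift _ sact fun _ hs => sact_center hs

theorem pact_injective : Function.Injective pact := by
  rw [injective_iff_map_eq_one]
  intro x hx
  obtain ⟨s, rfl⟩ := QuotientGroup.mk_surjective x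
  exact (QuotientGroup.eq_one_iff s).2 (center_of_sact hx)

theorem P168_eq : P168 = pact.range := by
  have hle : P168 ≤ pact.range := by
    unfold P168
    rw [Subgroup.closure_le]
    rintro x (rfl | rfl | rfl)
    · exact ⟨QuotientGroup.mk mN, sact_N⟩
    · exact ⟨QuotientGroup.mk mH, sact_H⟩
    · exact ⟨QuotientGroup.mk mW, sact_W⟩
  refine Subgroup.eq_of_le_of_card_ge hle ?_
  have h1 : Nat.card pact.range = 168 := by
    rw [← Nat.card_congr (MonoidHom.ofInjective pact_injective).toEquiv, card_psl (ZMod.card 7)]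
  rw [h1]
  exact Nat.le_of_dvd Nat.card_pos dvd_card

theorem equiv168 : Nonempty (↥P168 ≃* Matrix.ProjectiveSpecialLinearGroup (Fin 2) (ZMod 7)) :=
  ⟨(MulEquiv.subgroupCongr P168_eq).trans (MonoidHom.ofInjective pact_injective).symm⟩

theorem equiv336 :
    Nonempty (↥P336 ≃* MulAut (Matrix.ProjectiveSpecialLinearGroup (Fin 2) (ZMod 7))) := by
  obtain ⟨e⟩ := equiv168
  have hcen : Subgroup.centralizer ((P168.subgroupOf P336 : Subgroup P336) : Set P336) = ⊥ := by
    rw [eq_bot_iff]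
    intro g hg
    rw [Subgroup.mem_bot]
    apply Subtype.ext
    refine centralizer_triv ?_ ?_
    · have h1 := Subgroup.mem_centralizer_iff.1 hg ⟨nn, P168_le nn_mem⟩
        (Subgroup.mem_subgroupOf.2 nn_mem)
      exact (congrArg Subtype.val h1).symm
    · have h1 := Subgroup.mem_centralizer_iff.1 hg ⟨ww, P168_le ww_mem⟩
        (Subgroup.mem_subgroupOf.2 ww_mem)
      exact (congrArg Subtype.val h1).symm
  rcases two_cases (ZMod.card 7) (P168.subgroupOf P336) normal_P168
    ((Subgroup.subgroupOfEquivOfLe P168_le).trans e) hcen with ⟨h1, -⟩ | h1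
  · exfalso
    rw [Subgroup.subgroupOf_eq_top] at h1
    exact g6_not_mem (h1 (Subgroup.subset_closure (by simp)))
  · exact h1

/-- **Task GRP.** -/
theorem grp : Grp.{u} := by
  intro F _ _ hF H _ _ he
  obtain ⟨e⟩ := he
  have hFit : (Cfsg.generalizedFittingSubgroup H).Normal := Cfsg.Agent.Lib.GenFitting.genFitting_normal
  have σ : F ≃+* ZMod 7 := Classical.choice (by
    have h1 : Fintype.card F = Fintype.card (ZMod 7) := by rw [hF, ZMod.card]
    exact ⟨FiniteField.ringEquivOfCardEq h1⟩)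
  have hcen : Subgroup.centralizer ((Cfsg.generalizedFittingSubgroup H : Subgroup H) : Set H) = ⊥ := by
    rw [eq_bot_iff]
    intro g hg
    have h1 := Cfsg.Agent.S1265.result hg
    have h2 : (⟨g, h1⟩ : ↥(Cfsg.generalizedFittingSubgroup H)) ∈
        Subgroup.center ↥(Cfsg.generalizedFittingSubgroup H) := by
      rw [Subgroup.mem_center_iff]
      intro x
      exact Subtype.ext (Subgroup.mem_centralizer_iff.1 hg x x.2)
    have h3 : e ⟨g, h1⟩ ∈ Subgroup.center (Matrix.ProjectiveSpecialLinearGroup (Fin 2) F) := by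
      rw [Subgroup.mem_center_iff] at h2 ⊢
      intro y
      obtain ⟨x, rfl⟩ := e.surjective y
      rw [← map_mul, h2 x, map_mul]
    rw [psl_center hF, Subgroup.mem_bot, map_eq_one_iff e e.injective] at h3
    rw [Subgroup.mem_bot]
    exact congrArg Subtype.val h3
  have c := Cfsg.Agent.LieClassical.FieldTransfer.pslCongr (ι := Fin 2) σ
  rcases two_cases hF _ hFit e hcen with h | h
  · left
    obtain ⟨-, ⟨f⟩⟩ := h
    obtain ⟨k⟩ := equiv168
    exact ⟨(f.trans c).trans k.symm⟩
  · right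
    obtain ⟨f⟩ := h
    obtain ⟨k⟩ := equiv336
    exact ⟨(f.trans (MulAut.congr c)).trans k.symm⟩

end Cfsg.Agent.H89.L7
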